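import Cfsg.Agent.H158.OZ.Tor
import Cfsg.Agent.H769.OZ.LeviLin
import Cfsg.Agent.H985.VZ.Defs

/-!
# S4842, `PΩ⁺_8(q)`: coordinates, the root group datum `RS`, stabilisers (helper158)
-/

set_option autoImplicit false
set_option linter.unusedSectionVars false
set_option linter.unusedSimpArgs false

open Cfsg

namespace Cfsg.Agent.H158.OZ

open CoxeterSystem Cfsg.Agent.ChevalleyStructure.CoxeterGeom Cfsg.Agent.Tits.Roots
open Cfsg.Agent.Nodes Cfsg.Agent.Nodes.Comb Cfsg.Agent.Nodes.Reps Cfsg.Agent.Nodes.WittRoot Cfsg.Agent.Nodes.BNOf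
open Cfsg.Agent.Nodes.RGDLib Cfsg.Agent.Nodes.WittAll Cfsg.Agent.Nodes.WittU Cfsg.Agent.Nodes.WittInst
open Cfsg.Agent.Nodes.StabComb Cfsg.Agent.Nodes.Bruhat Cfsg.Agent.Nodes.LeviDec
open Cfsg.Agent.Nodes.TypeC (wt ng ng_ng wt_apply)
open Cfsg.Agent.Nodes.TypeD
open Cfsg.Agent.TitsThree Cfsg.Agent.TitsThree.Siegel Cfsg.Agent.TitsThree.WittFrame Cfsg.Agent.TitsThree.WittWeyl
  Cfsg.Agent.TitsThree.WBridge Cfsg.Agent.TitsThree.KSideO
open Cfsg.Agent.LieClassical Cfsg.Agent.LieClassical.OrthCore Cfsg.Agent.LieClassical.OrthTrans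
open Cfsg.Agent.LieClassical.OrthForms QuadraticMap
open Cfsg.Agent.H769.OZ (StE le_StE mem_StE_of_finite mem_StE)

/-! ### Coordinates -/

section coord

variable (F : Type*) [Field F]

/-- the space -/
abbrev V8 := Fin 4 ⊕ Fin 4 → F

/-- the form -/
abbrev Q8 : QuadraticForm F (V8 F) := plusForm 4 F

/-- the frame -/
abbrev F8 : Frame (HO (Q8 F)) (Fin (2 + 2)) := toFrame (wplus 4 F)

variable {F}

/-- the index of a signed index -/
def ix (x : Fin 4 × Bool) : Fin 4 ⊕ Fin 4 := if x.2 then Sum.inl x.1 else Sum.inr x.1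

/-- the basis vectors -/
abbrev bb (x : Fin 4 × Bool) : V8 F := (F8 F).b x

theorem ix_inj {x y : Fin 4 × Bool} (h : ix x = ix y) : x = y := by
  obtain ⟨i, s⟩ := x
  obtain ⟨j, t⟩ := y
  unfold ix at h
  cases s <;> cases t <;> simp_all

theorem ix_surj (k : Fin 4 ⊕ Fin 4) : ∃ x, ix x = k := by
  rcases k with i | i
  · exact ⟨(i, true), rfl⟩
  · exact ⟨(i, false), rfl⟩

theorem bb_eq (x : Fin 4 × Bool) : (bb x : V8 F) = Pi.single (ix x) 1 := by
  obtain ⟨i, s⟩ := x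
  cases s <;> rfl

/-- the coordinates -/
def co (x : Fin 4 × Bool) : V8 F →ₗ[F] F := LinearMap.proj (ix x)

theorem co_apply (x : Fin 4 × Bool) (v : V8 F) : co x v = v (ix x) := rfl

theorem co_bb (x y : Fin 4 × Bool) : co x (bb y : V8 F) = if x = y then 1 else 0 := by
  rw [bb_eq, co_apply, Pi.single_apply]
  by_cases h : x = y
  · subst h; simp
  · rw [if_neg h, if_neg fun h' => h (ix_inj h')]

theorem co_ext {v w : V8 F} (h : ∀ x, co x v = co x w) : v = w := by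
  funext k
  obtain ⟨x, rfl⟩ := ix_surj k
  exact h x

theorem sum_co (v : V8 F) : v = ∑ x, co x v • bb x := by
  apply co_ext
  intro y
  rw [map_sum]
  simp only [map_smul, co_bb, smul_eq_mul, mul_ite, mul_one, mul_zero]
  rw [Finset.sum_ite_eq, if_pos (Finset.mem_univ y)]

theorem apply_eq_sum {M : Type*} [AddCommMonoid M] [Module F M] (g : V8 F →ₗ[F] M) (v : V8 F) :
    g v = ∑ x, co x v • g (bb x) := by
  conv_lhs => rw [sum_co v]
  rw [map_sum]
  exact Finset.sum_congr rfl fun x _ => map_smul _ _ _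

/-- equality of maps -/
theorem ext_bb {g k : V8 F ≃ₗ[F] V8 F} (h : ∀ x, g (bb x) = k (bb x)) : g = k := by
  apply LinearEquiv.ext
  intro v
  have h1 := apply_eq_sum (g : V8 F →ₗ[F] V8 F) v
  have h2 := apply_eq_sum (k : V8 F →ₗ[F] V8 F) v
  change g v = _ at h1
  change k v = _ at h2
  rw [h1, h2]
  exact Finset.sum_congr rfl fun x _ => congrArg _ (h x)

theorem polar_bb (v : V8 F) (x : Fin 4 × Bool) : polar (Q8 F) v (bb x) = co (ng x) v := by
  rw [bb_eq, polar_plusForm, co_apply]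
  obtain ⟨i, s⟩ := x
  cases s
  · simp [ix, ng, Pi.single_apply]
  · simp [ix, ng, Pi.single_apply]

theorem Q8_apply (v : V8 F) : Q8 F v = ∑ i : Fin 4, co (i, true) v * co (i, false) v := by
  change (plusForm 4 F) v = _
  rw [coe_plusForm, quadFormPlus_apply]
  rfl

/-- the root elements -/
theorem X8 {a c : Fin 4 × Bool} (h : a.1 ≠ c.1) (t : F) (v : V8 F) :
    (F8 F).X a c t v = v + (t * co (ng c) v) • bb a - (t * co (ng a) v) • bb c := by
  have hη : ∀ x, (F8 F).η x = 1 := by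
    intro x
    unfold Frame.η
    split_ifs <;> rfl
  rw [X_apply _ h]
  have e1 : (F8 F).sc c t = -t := by
    unfold Frame.sc
    rw [hη]
    change -((1 : F)⁻¹ * 1 * t) = -t
    rw [inv_one, one_mul, one_mul]
  rw [e1]
  change v + (polar (Q8 F) v (bb a) * -t) • bb c - ((1 : F)⁻¹ * -t * polar (Q8 F) v (bb c)) • bb a = _
  rw [polar_bb, polar_bb, inv_one]
  module

/-- coordinate subspaces -/
def SZ (Z : Set (Fin 4 × Bool)) : Submodule F (V8 F) where
  carrier := {v | ∀ x, x ∉ Z → co x v = 0}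
  add_mem' := fun ha hb x hx => by rw [map_add, ha x hx, hb x hx, add_zero]
  zero_mem' := fun x _ => map_zero _
  smul_mem' := fun c v hv x hx => by rw [map_smul, hv x hx, smul_zero]

theorem mem_SZ {Z : Set (Fin 4 × Bool)} {v : V8 F} : v ∈ SZ Z ↔ ∀ x, x ∉ Z → co x v = 0 := Iff.rfl

theorem bb_mem_SZ {Z : Set (Fin 4 × Bool)} {x : Fin 4 × Bool} (hx : x ∈ Z) : (bb x : V8 F) ∈ SZ Z := by
  intro y hy
  rw [co_bb, if_neg]
  rintro rfl
  exact hy hx

theorem bb_mem_SZ_iff {Z : Set (Fin 4 × Bool)} {x : Fin 4 × Bool} : (bb x : V8 F) ∈ SZ Z ↔ x ∈ Z := by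
  refine ⟨fun h => ?_, bb_mem_SZ⟩
  by_contra hx
  have := h x hx
  rw [co_bb, if_pos rfl] at this
  exact one_ne_zero this

/-- a map is determined on the basis -/
theorem map_SZ {Z : Set (Fin 4 × Bool)} {g : V8 F →ₗ[F] V8 F} {D : Submodule F (V8 F)}
    (h : ∀ x ∈ Z, g (bb x) ∈ D) {v : V8 F} (hv : v ∈ SZ Z) : g v ∈ D := by
  classical
  rw [apply_eq_sum g v]
  refine D.sum_mem fun x _ => ?_
  by_cases hx : x ∈ Z
  · exact D.smul_mem _ (h x hx)
  · rw [hv x hx, zero_smul]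
    exact D.zero_mem

theorem SZ_inf (Z Z' : Set (Fin 4 × Bool)) : (SZ Z ⊓ SZ Z' : Submodule F (V8 F)) = SZ (Z ∩ Z') := by
  classical
  ext v
  rw [Submodule.mem_inf, mem_SZ, mem_SZ, mem_SZ]
  constructor
  · rintro ⟨h1, h2⟩ x hx
    by_cases h : x ∈ Z
    · exact h2 x fun h' => hx ⟨h, h'⟩
    · exact h1 x h
  · exact fun h => ⟨fun x hx => h x fun h' => hx h'.1, fun x hx => h x fun h' => hx h'.2⟩

/-- the root element preserves a coordinate subspace -/
theorem X8_mem_StE {a c : Fin 4 × Bool} (h : a.1 ≠ c.1) {Z : Set (Fin 4 × Bool)} (h1 : ng c ∈ Z → a ∈ Z)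
    (h2 : ng a ∈ Z → c ∈ Z) (t : F) {v : V8 F} (hv : v ∈ SZ Z) : (F8 F).X a c t v ∈ SZ Z := by
  rw [X8 h]
  refine Submodule.sub_mem _ (Submodule.add_mem _ hv ?_) ?_
  · by_cases hc : ng c ∈ Z
    · exact Submodule.smul_mem _ _ (bb_mem_SZ (h1 hc))
    · rw [hv _ hc, mul_zero, zero_smul]
      exact Submodule.zero_mem _
  · by_cases hc : ng a ∈ Z
    · exact Submodule.smul_mem _ _ (bb_mem_SZ (h2 hc))
    · rw [hv _ hc, mul_zero, zero_smul]
      exact Submodule.zero_mem _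

/-! ### The filtration groups -/

/-- the group acting trivially on the quotients of the filtration by the rank function `r` -/
def UF (r : Fin 4 × Bool → ℕ) : Subgroup (V8 F ≃ₗ[F] V8 F) where
  carrier := {u | ∀ k, ∀ v ∈ SZ {x | r x < k + 1}, u v - v ∈ SZ {x | r x < k}}
  one_mem' := fun k v _ => by
    change v - v ∈ _
    rw [sub_self]
    exact Submodule.zero_mem _
  mul_mem' := by
    intro a b ha hb k v hv
    change a (b v) - v ∈ _
    have hle : (SZ {x | r x < k} : Submodule F (V8 F)) ≤ SZ {x | r x < k + 1} := fun w hw x hx => hw x fun h' =>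
      hx (lt_trans h' (Nat.lt_succ_self k))
    have h1 := hb k v hv
    have h2 : b v ∈ SZ {x | r x < k + 1} := by
      have := Submodule.add_mem _ (hle h1) hv
      rwa [sub_add_cancel] at this
    have h3 := Submodule.add_mem _ (ha k _ h2) h1
    rwa [sub_add_sub_cancel] at h3
  inv_mem' := by
    intro a ha
    have key : ∀ k, ∀ v ∈ SZ {x | r x < k}, a⁻¹ v ∈ SZ {x | r x < k} := by
      intro k
      induction k with
      | zero =>
        intro v hv
        have : v = 0 := co_ext fun x => by rw [map_zero]; exact hv x (Nat.not_lt_zero _)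
        rw [this, map_zero]
        exact Submodule.zero_mem _
      | succ k ih =>
        intro v hv
        have hle : (SZ {x | r x < k} : Submodule F (V8 F)) ≤ SZ {x | r x < k + 1} := fun w hw x hx => hw x fun h' =>
          hx (lt_trans h' (Nat.lt_succ_self k))
        have h1 := hle (ih _ (ha k v hv))
        have h2 : a⁻¹ v = v - a⁻¹ (a v - v) := by
          rw [map_sub]
          have : a⁻¹ (a v) = v := a.symm_apply_apply v
          rw [this]
          abel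
        rw [h2]
        exact Submodule.sub_mem _ hv h1
    intro k v hv
    have h2 : a⁻¹ v - v = -a⁻¹ (a v - v) := by
      rw [map_sub]
      have : a⁻¹ (a v) = v := a.symm_apply_apply v
      rw [this]
      abel
    rw [h2]
    exact Submodule.neg_mem _ (key k _ (ha k v hv))

theorem mem_UF {r : Fin 4 × Bool → ℕ} {u : V8 F ≃ₗ[F] V8 F} :
    u ∈ UF r ↔ ∀ k, ∀ v ∈ SZ {x | r x < k + 1}, u v - v ∈ SZ {x | r x < k} := Iff.rfl

theorem UF_bb {r : Fin 4 × Bool → ℕ} {u : V8 F ≃ₗ[F] V8 F} (hu : u ∈ UF r) (x : Fin 4 × Bool) :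
    u (bb x) - bb x ∈ SZ {y | r y < r x} := hu (r x) _ (bb_mem_SZ (Nat.lt_succ_self _))

theorem X8_mem_UF {r : Fin 4 × Bool → ℕ} {a c : Fin 4 × Bool} (h : a.1 ≠ c.1) (h1 : r a < r (ng c))
    (h2 : r c < r (ng a)) (t : F) : (F8 F).X a c t ∈ UF r := by
  intro k v hv
  rw [X8 h]
  have e : v + (t * co (ng c) v) • bb a - (t * co (ng a) v) • bb c - v =
      (t * co (ng c) v) • bb a - (t * co (ng a) v) • bb c := by abel
  rw [e]
  refine Submodule.sub_mem _ ?_ ?_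
  · by_cases hc : r (ng c) < k + 1
    · exact Submodule.smul_mem _ _ (bb_mem_SZ (lt_of_lt_of_le h1 (Nat.lt_succ_iff.1 hc)))
    · rw [hv _ hc, mul_zero, zero_smul]
      exact Submodule.zero_mem _
  · by_cases hc : r (ng a) < k + 1
    · exact Submodule.smul_mem _ _ (bb_mem_SZ (lt_of_lt_of_le h2 (Nat.lt_succ_iff.1 hc)))
    · rw [hv _ hc, mul_zero, zero_smul]
      exact Submodule.zero_mem _

end coord

/-! ### The root group datum of a quotient of `E Q` -/

section rgd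

variable {F : Type*} [Field F] {S : Type*} [Group S] (π : E (Q8 F) →* S)

/-- the torus -/
def TSS : Subgroup S := ((TS (F8 F) (E (Q8 F))).subgroupOf (E (Q8 F))).map π

/-- the Weyl elements -/
noncomputable def nS (i : Fin 4) : S := π ⟨WittRGDD.nn (F8 F) i, WittRGDD.nn_mem (amb_plus 4) i⟩

/-- the root groups -/
def XS (x : Fin 4 → ℤ) : Subgroup S := XD (n := 2) (wplus 4 F) π x

variable {π}

theorem RS [Finite F] (hk : π.ker ≤ Subgroup.center (E (Q8 F))) {p : ℕ} [Fact p.Prime] [CharP F p] {W : Type*}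
    [Group W] (cs : CoxeterSystem (TypeD.M 2) W) : RGD cs (isCartan 2) p (TSS π) (nS π) (XS π) := by
  have : Finite (V8 F ≃ₗ[F] V8 F) :=
    Finite.of_injective (fun g : V8 F ≃ₗ[F] V8 F => (g : V8 F → V8 F)) DFunLike.coe_injective
  have : Finite W := finite_W cs
  exact rgd_map_of_ker_le_center (rgd_restrict (rgdS (amb_plus 4) rfl (fun _ => rfl) (adm_plus 4) cs) (E (Q8 F))
    (fun x _ => rgD_le (n := 2) (wplus 4 F) (amb_plus 4) x) (fun i => WittRGDD.nn_mem (amb_plus 4) i)) π hk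

theorem G1S (hπ : Function.Surjective π) {W : Type*} [Group W] (cs : CoxeterSystem (TypeD.M 2) W) :
    G1 cs (isCartan 2) (XS π) = ⊤ := G1D_eq_top (n := 2) (wplus 4 F) π hπ (adm_plus 4) cs

theorem GGS (hπ : Function.Surjective π) {W : Type*} [Group W] (cs : CoxeterSystem (TypeD.M 2) W) :
    GG cs (isCartan 2) (TSS π) (XS π) = ⊤ := by
  rw [eq_top_iff, ← G1S hπ cs]
  exact le_sup_right

theorem mem_XS {x : Fin 4 → ℤ} {a c : Fin 4 × Bool} (hac : a.1 ≠ c.1) (e : TypeD.ee (n := 2) x = wt a + wt c) {s : S} :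
    s ∈ XS π x ↔ ∃ t, ∃ hm : (F8 F).X a c t ∈ E (Q8 F), s = π ⟨_, hm⟩ := by
  unfold XS XD
  rw [WittRGDD.rg_eq (F8 F) hac e, Subgroup.mem_map]
  constructor
  · rintro ⟨z, hz, rfl⟩
    obtain ⟨t, ht⟩ := hz
    have h1 : (z : V8 F ≃ₗ[F] V8 F) = (F8 F).X a c t := ht
    refine ⟨t, h1 ▸ z.2, congrArg π (Subtype.ext h1)⟩
  · rintro ⟨t, hm, rfl⟩
    exact ⟨_, ⟨t, rfl⟩, rfl⟩

theorem mem_TSS {s : S} : s ∈ TSS π ↔ ∃ z : E (Q8 F), MS (F8 F) z.1 (fun x => x) 1 ∧ s = π z := by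
  unfold TSS
  rw [Subgroup.mem_map]
  constructor
  · rintro ⟨z, hz, rfl⟩
    exact ⟨z, hz.2, rfl⟩
  · rintro ⟨z, hz, rfl⟩
    exact ⟨z, ⟨z.2, hz⟩, rfl⟩

theorem TSS_comm : ∀ s ∈ TSS π, ∀ t ∈ TSS π, s * t = t * s := by
  intro s hs t ht
  obtain ⟨z, ⟨c, -, h1, -⟩, rfl⟩ := mem_TSS.1 hs
  obtain ⟨w, ⟨d, -, h2, -⟩, rfl⟩ := mem_TSS.1 ht
  rw [← map_mul, ← map_mul]
  congr 1
  apply Subtype.ext
  apply ext_bb
  intro x
  change (z : V8 F ≃ₗ[F] V8 F) ((w : V8 F ≃ₗ[F] V8 F) (bb x)) = (w : V8 F ≃ₗ[F] V8 F) ((z : V8 F ≃ₗ[F] V8 F) (bb x))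
  have e1 : (z : V8 F ≃ₗ[F] V8 F) (bb x) = c x • bb x := h1 x
  have e2 : (w : V8 F ≃ₗ[F] V8 F) (bb x) = d x • bb x := h2 x
  rw [e1, e2, map_smul, map_smul, e1, e2, smul_smul, smul_smul, mul_comm]

/-! ### Stabilisers -/

variable (π) in
/-- the stabiliser of a subspace -/
def PS (D : Submodule F (V8 F)) : Subgroup S := ((StE D).subgroupOf (E (Q8 F))).map π

theorem mem_PS (hk : ∀ z : E (Q8 F), z ∈ π.ker → ∃ a : F, ∀ v, (z : V8 F ≃ₗ[F] V8 F) v = a • v)
    {D : Submodule F (V8 F)} {z : E (Q8 F)} : π z ∈ PS π D ↔ (z : V8 F ≃ₗ[F] V8 F) ∈ StE D := by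
  constructor
  · intro h
    obtain ⟨w, hw, e⟩ := Subgroup.mem_map.1 h
    obtain ⟨a, ha⟩ := hk (w⁻¹ * z) (by rw [MonoidHom.mem_ker, map_mul, map_inv, e, inv_mul_cancel])
    have h1 : (z : V8 F ≃ₗ[F] V8 F) = (w : V8 F ≃ₗ[F] V8 F) * ((w⁻¹ * z : E (Q8 F)) : V8 F ≃ₗ[F] V8 F) := by
      rw [← Subgroup.coe_mul, mul_inv_cancel_left]
    rw [h1]
    refine (StE D).mul_mem hw ?_
    have ha0 : a ≠ 0 := by
      rintro rfl
      have h2 := ha (bb (0, true))
      rw [zero_smul, LinearEquiv.map_eq_zero_iff] at h2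
      have h3 := co_bb (F := F) (0, true) (0, true)
      rw [h2, map_zero, if_pos rfl] at h3
      exact zero_ne_one h3
    intro v
    rw [ha]
    exact D.smul_mem_iff ha0
  · intro h
    exact Subgroup.mem_map.2 ⟨z, h, rfl⟩

theorem mono_StE {g : V8 F ≃ₗ[F] V8 F} {ρ : Fin 4 × Bool → Fin 4 × Bool} (hg : Mono (F8 F) g ρ)
    {Z : Set (Fin 4 × Bool)} (h : ∀ x ∈ Z, ρ x ∈ Z) {v : V8 F} (hv : v ∈ SZ Z) : g v ∈ SZ Z := by
  refine map_SZ (g := (g : V8 F →ₗ[F] V8 F)) (fun x hx => ?_) hv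
  obtain ⟨l, -, e⟩ := hg x
  change g (bb x) ∈ _
  rw [show g (bb x) = l • bb (ρ x) from e]
  exact Submodule.smul_mem _ _ (bb_mem_SZ (h x hx))

theorem TSS_le_PS [Finite F] (Z : Set (Fin 4 × Bool)) : TSS π ≤ PS π (SZ Z) := by
  intro s hs
  obtain ⟨z, hz, rfl⟩ := mem_TSS.1 hs
  exact Subgroup.mem_map.2 ⟨z, mem_StE_of_finite fun v hv => mono_StE hz.mono (fun x hx => hx) hv, rfl⟩

end rgd

end Cfsg.Agent.H158.OZ
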