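import Cfsg.Agent.Nodes.WittInst

/-!
# S4842, `PΩ⁺_8(q)`: the root group datum with the small torus (helper158)

`WittInst.rgdD_model` has the torus `Tor (E Q)` = all diagonal elements of `E Q`. Here the torus is replaced by its subgroup
of the diagonal elements `(c, c⁻¹)` with `∏ c_i` a square (it is the same group, but this needs the spinor norm):

* `MS Fr g π d` : `g` is monomial over the signed permutation `π` with scalars `c`, `c_x c_{-x} = 1`, `d ∏ c_i` a square;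
* `TS Fr G0` : the small torus; `nsysS`, `rgd_sub`;
* `RS` : the root group datum of `POmega`.
-/

set_option autoImplicit false
set_option linter.unusedSectionVars false
set_option linter.unusedSimpArgs false

open Cfsg

namespace Cfsg.Agent.H158.OZ

open CoxeterSystem Cfsg.Agent.ChevalleyStructure.CoxeterGeom Cfsg.Agent.Tits.Roots
open Cfsg.Agent.Nodes.Comb Cfsg.Agent.Nodes.Reps Cfsg.Agent.Nodes.WittRoot Cfsg.Agent.Nodes.BNOf
open Cfsg.Agent.Nodes.RGDLib Cfsg.Agent.Nodes.WittAll Cfsg.Agent.Nodes.WittU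
open Cfsg.Agent.Nodes.TypeC (wt ng ng_ng)
open Cfsg.Agent.Nodes.TypeD
open Cfsg.Agent.Nodes.WittRGD (Tor)
open Cfsg.Agent.TitsThree Cfsg.Agent.TitsThree.Siegel Cfsg.Agent.TitsThree.WittFrame Cfsg.Agent.TitsThree.WittWeyl

/-- a smaller torus -/
theorem rgd_sub {I W Y : Type*} [Fintype I] [DecidableEq I] [Group W] [Group Y] [Finite Y] {M : CoxeterMatrix I}
    {cs : CoxeterSystem M W} {A : I → I → ℤ} {h : IsCartan M A} {p : ℕ} {T : Subgroup Y} {n : I → Y}
    {X : (I → ℤ) → Subgroup Y} (R : RGD cs h p T n X) {T' : Subgroup Y} (hT : T' ≤ T) (hN : NSys M T' n)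
    (h1 : ∀ i, ∀ u ∈ X (-sr i), u ≠ 1 → ∃ a ∈ X (sr i), ∃ t ∈ T', ∃ b ∈ X (sr i), u = a * t * n i * b) :
    RGD cs h p T' n X where
  nsys := hN
  conj := R.conj
  tor x hx t ht := R.tor x hx t (hT ht)
  comm := R.comm
  rk1 := h1
  pgrp := R.pgrp
  notp := R.notp
  tcop := R.tcop.coprime_dvd_left (Subgroup.card_dvd_of_le hT)

section MS

variable {F : Type*} [Field F] {V : Type*} [AddCommGroup V] [Module F V] {H : HForm F V} {n : ℕ}
  (Fr : Frame H (Fin (n + 2))) (G0 : Subgroup (V ≃ₗ[F] V))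

/-- monomial elements with a square class -/
def MS (g : V ≃ₗ[F] V) (π : Fin (n + 2) × Bool → Fin (n + 2) × Bool) (d : F) : Prop :=
  ∃ c : Fin (n + 2) × Bool → F, (∀ x, c x * c (ng x) = 1) ∧ (∀ x, g (Fr.b x) = c x • Fr.b (π x)) ∧
    IsSquare (d * ∏ i, c (i, true))

/-- permutations of the pairs -/
structure Pm (ρ : Fin (n + 2) × Bool → Fin (n + 2) × Bool) : Prop where
  ng : ∀ x, ρ (ng x) = ng (ρ x)
  inj : ∀ i j, (ρ (i, true)).1 = (ρ (j, true)).1 → i = j

theorem Pm.id : Pm (fun x : Fin (n + 2) × Bool => x) := ⟨fun _ => rfl, fun _ _ h => h⟩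

theorem Pm.fst {ρ : Fin (n + 2) × Bool → Fin (n + 2) × Bool} (h : Pm ρ) (x : Fin (n + 2) × Bool) :
    (ρ x).1 = (ρ (x.1, true)).1 := by
  obtain ⟨i, s⟩ := x
  cases s
  · have := congrArg Prod.fst (h.ng (i, true))
    exact this
  · rfl

theorem Pm.comp {π ρ : Fin (n + 2) × Bool → Fin (n + 2) × Bool} (h : Pm π) (h' : Pm ρ) : Pm (fun x => π (ρ x)) := by
  refine ⟨fun x => by rw [h'.ng, h.ng], fun i j hij => h'.inj i j (h.inj _ _ ?_)⟩
  rw [← h.fst, ← h.fst]
  exact hij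

theorem pm_sg (i : Fin (n + 2)) : Pm (sg i) :=
  ⟨sg_ng i, fun _ _ h => (sg_fst_eq i).1 h⟩

theorem prod_flip {ρ : Fin (n + 2) × Bool → Fin (n + 2) × Bool} (h : Pm ρ) {c : Fin (n + 2) × Bool → F}
    (hc : ∀ x, c x * c (ng x) = 1) : ∃ e : F, ∏ i, c (ρ (i, true)) = (∏ i, c (i, true)) * (e * e) ∧ e ≠ 0 := by
  have hbij : Function.Bijective fun i : Fin (n + 2) => (ρ (i, true)).1 :=
    Finite.injective_iff_bijective.1 fun i j hij => h.inj i j hij
  refine ⟨∏ i, (if (ρ (i, true)).2 then 1 else c (ρ (i, true))), ?_, ?_⟩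
  · rw [← hbij.prod_comp fun i => c (i, true), ← Finset.prod_mul_distrib, ← Finset.prod_mul_distrib]
    refine Finset.prod_congr rfl fun i _ => ?_
    rcases hx : ρ (i, true) with ⟨j, s⟩
    cases s
    · simp only [Bool.false_eq_true, if_false]
      have h1 : c (j, false) * c (j, true) = 1 := hc (j, false)
      linear_combination (-c (j, false)) * h1
    · simp
  · rw [Finset.prod_ne_zero_iff]
    intro i _
    split_ifs
    · exact one_ne_zero
    · intro h0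
      have := hc (ρ (i, true))
      rw [h0, zero_mul] at this
      exact zero_ne_one this

variable {Fr}

theorem MS.congr {g : V ≃ₗ[F] V} {π ρ : Fin (n + 2) × Bool → Fin (n + 2) × Bool} {d e : F} (h : MS Fr g π d)
    (h' : ∀ x, π x = ρ x) (h'' : d = e) : MS Fr g ρ e := by
  obtain ⟨c, h1, h2, h3⟩ := h
  exact ⟨c, h1, fun x => by rw [← h']; exact h2 x, h'' ▸ h3⟩

theorem MS.one : MS Fr (1 : V ≃ₗ[F] V) (fun x => x) 1 :=
  ⟨fun _ => 1, fun _ => one_mul 1, fun x => by rw [one_smul]; rfl, by simp⟩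

theorem MS.mul {g k : V ≃ₗ[F] V} {π ρ : Fin (n + 2) × Bool → Fin (n + 2) × Bool} {d e : F} (hg : MS Fr g π d)
    (hk : MS Fr k ρ e) (hρ : Pm ρ) : MS Fr (g * k) (fun x => π (ρ x)) (d * e) := by
  obtain ⟨c, h1, h2, h3⟩ := hg
  obtain ⟨c', h1', h2', h3'⟩ := hk
  obtain ⟨r, hr, -⟩ := prod_flip hρ h1
  refine ⟨fun x => c' x * c (ρ x), fun x => ?_, fun x => ?_, ?_⟩
  · have e1 := h1' x
    have e2 := h1 (ρ x)
    rw [← hρ.ng] at e2
    show c' x * c (ρ x) * (c' (ng x) * c (ρ (ng x))) = 1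
    linear_combination e1 * (c (ρ x) * c (ρ (ng x))) + e2
  · rw [mul_apply', h2', map_smul, h2, smul_smul]
  · rw [Finset.prod_mul_distrib, hr]
    have e1 : d * e * ((∏ i, c' (i, true)) * ((∏ i, c (i, true)) * (r * r))) =
        (d * ∏ i, c (i, true)) * (e * ∏ i, c' (i, true)) * (r * r) := by ring
    rw [e1]
    exact (h3.mul h3').mul ⟨r, rfl⟩

theorem MS.inv {g : V ≃ₗ[F] V} {π ρ : Fin (n + 2) × Bool → Fin (n + 2) × Bool} {d : F} (hg : MS Fr g π d)
    (hρ : Pm ρ) (h : ∀ x, π (ρ x) = x) : MS Fr g⁻¹ ρ d := by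
  obtain ⟨c, h1, h2, h3⟩ := hg
  obtain ⟨r, hr, hr0⟩ := prod_flip hρ h1
  have hc : ∀ x, c x ≠ 0 := fun x h0 => by
    have := h1 x
    rw [h0, zero_mul] at this
    exact zero_ne_one this
  refine ⟨fun x => (c (ρ x))⁻¹, fun x => ?_, fun x => ?_, ?_⟩
  · show (c (ρ x))⁻¹ * (c (ρ (ng x)))⁻¹ = 1
    rw [hρ.ng, ← mul_inv, h1, inv_one]
  · have e := h2 (ρ x)
    rw [h] at e
    have h4 : g⁻¹ (g (Fr.b (ρ x))) = Fr.b (ρ x) := by
      rw [← mul_apply', inv_mul_cancel]; rfl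
    rw [e, map_smul] at h4
    rw [← h4, smul_smul, inv_mul_cancel₀ (hc _), one_smul]
  · rw [Finset.prod_inv_distrib, hr]
    have hp : ∏ i, c (i, true) ≠ 0 := Finset.prod_ne_zero_iff.2 fun i _ => hc _
    have e1 : d * ((∏ i, c (i, true)) * (r * r))⁻¹ =
        (d * ∏ i, c (i, true)) * ((∏ i, c (i, true))⁻¹ * r⁻¹ * ((∏ i, c (i, true))⁻¹ * r⁻¹)) := by
      field_simp
    rw [e1]
    exact h3.mul ⟨_, rfl⟩

theorem MS.pow {g : V ≃ₗ[F] V} {π : Fin (n + 2) × Bool → Fin (n + 2) × Bool} {d : F} (hg : MS Fr g π d) (hπ : Pm π)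
    (m : ℕ) : MS Fr (g ^ m) (π^[m]) (d ^ m) ∧ Pm (π^[m]) := by
  induction m with
  | zero => exact ⟨MS.one.congr (fun _ => rfl) (pow_zero d).symm, Pm.id⟩
  | succ m ih =>
    rw [pow_succ', Function.iterate_succ', pow_succ']
    exact ⟨hg.mul ih.1 ih.2, hπ.comp ih.2⟩

theorem MS.mono {g : V ≃ₗ[F] V} {π : Fin (n + 2) × Bool → Fin (n + 2) × Bool} {d : F} (hg : MS Fr g π d) :
    Mono Fr g π := by
  obtain ⟨c, h1, h2, -⟩ := hg
  refine fun x => ⟨c x, fun h0 => ?_, h2 x⟩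
  have := h1 x
  rw [h0, zero_mul] at this
  exact zero_ne_one this

theorem ms_nX (hε : H.ε = 1) (hσ : ∀ t, H.σ t = t) (i : Fin (n + 2)) {t : F} (ht : t ≠ 0) :
    MS Fr (nX Fr (i, true) (nx i) t) (sg i) (-1) := by
  have hxy : ((i, true) : Fin (n + 2) × Bool).1 ≠ (nx i).1 := ok_nx i
  have hη : ∀ x, Fr.η x = 1 := by
    intro x
    unfold Frame.η
    rw [hε]
    split_ifs <;> rfl
  set x : Fin (n + 2) × Bool := (i, true) with hx
  set y := nx i with hy
  refine ⟨fun z => if z = x then -t⁻¹ else if z = ng y then t else if z = ng x then -t else if z = y then t⁻¹ else 1,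
    fun z => ?_, fun z => ?_, ?_⟩
  · have hne1 : ng z = x ↔ z = ng x := by
      constructor
      · intro h; rw [← h, ng_ng]
      · intro h; rw [h, ng_ng]
    have hne2 : ng z = ng y ↔ z = y := by
      constructor
      · intro h; rw [← ng_ng z, h, ng_ng]
      · intro h; rw [h]
    have hne3 : ng z = ng x ↔ z = x := by
      constructor
      · intro h; rw [← ng_ng z, h, ng_ng]
      · intro h; rw [h]
    have hne4 : ng z = y ↔ z = ng y := by
      constructor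
      · intro h; rw [← h, ng_ng]
      · intro h; rw [h, ng_ng]
    simp only [hne1, hne2, hne3, hne4]
    have d1 : x ≠ ng y := fun h => hxy (by rw [h]; rfl)
    have d2 : x ≠ ng x := fun h => by
      have := congrArg Prod.snd h
      simp [ng] at this
    have d3 : x ≠ y := fun h => hxy (by rw [h])
    have d4 : ng y ≠ y := fun h => by
      have := congrArg Prod.snd h
      simp [ng] at this
    have d5 : ng x ≠ y := fun h => hxy (by rw [← h]; rfl)
    have d6 : ng y ≠ ng x := fun h => hxy (by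
      have := congrArg Prod.fst h
      exact this.symm)
    by_cases e1 : z = x
    · subst e1
      simp only [if_true, if_neg d2, if_neg d3]
      field_simp
    by_cases e2 : z = ng y
    · subst e2
      simp only [if_true, if_neg e1, if_neg d6, if_neg d4]
      exact mul_inv_cancel₀ ht
    by_cases e3 : z = ng x
    · subst e3
      simp only [if_true, if_neg e1, if_neg e2]
      field_simp
    by_cases e4 : z = y
    · subst e4
      simp only [if_true, if_neg e1, if_neg e2, if_neg e3]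
      exact inv_mul_cancel₀ ht
    simp only [if_neg e1, if_neg e2, if_neg e3, if_neg e4, mul_one]
  · rw [← Cfsg.Agent.Nodes.WittRGDD.sg_eq_rf]
    unfold Cfsg.Agent.Nodes.WittRGDD.rf
    simp only []
    by_cases h1 : z = x
    · rw [if_pos h1, if_pos h1, h1]
      exact (nX_apply_self Fr hxy ht).trans (neg_smul _ _).symm
    by_cases h2 : z = ng y
    · rw [if_neg h1, if_pos h2, if_neg h1, if_pos h2, h2]
      exact nX_apply_neg Fr hxy ht
    by_cases h4 : z = ng x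
    · rw [if_neg h1, if_neg h2, if_pos h4, if_neg h1, if_neg h2, if_pos h4, h4]
      refine (nX_apply_neg' Fr hxy ht).trans ?_
      rw [hη, hη, hε, hσ, inv_one, one_mul, one_mul, one_mul, neg_smul]
    by_cases h5 : z = y
    · rw [if_neg h1, if_neg h2, if_neg h4, if_pos h5, if_neg h1, if_neg h2, if_neg h4, if_pos h5, h5]
      refine (nX_apply_self' Fr hxy ht).trans ?_
      rw [hη, hη, hε, hσ, inv_one, one_mul, one_mul, one_mul]
      rfl
    rw [if_neg h1, if_neg h2, if_neg h4, if_neg h5, if_neg h1, if_neg h2, if_neg h4, if_neg h5, one_smul]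
    apply nX_apply_of_ne Fr hxy
    · intro h6
      rcases Cfsg.Agent.Nodes.WittRGD.eq_or_ng h6 with h7 | h7
      · exact h1 h7
      · exact h4 h7
    · intro h6
      rcases Cfsg.Agent.Nodes.WittRGD.eq_or_ng h6 with h7 | h7
      · exact h5 h7
      · exact h2 h7
  · have hyi : y.1 ≠ i := hxy.symm
    rw [← Finset.mul_prod_erase Finset.univ _ (Finset.mem_univ i),
      ← Finset.mul_prod_erase _ _ (Finset.mem_erase.2 ⟨hyi, Finset.mem_univ y.1⟩), Finset.prod_eq_one]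
    · simp only [hx, if_true]
      rcases hs : y with ⟨j, s⟩
      have hji : j ≠ i := by rw [hs] at hyi; exact hyi
      cases s
      · simp only [ng, Prod.mk.injEq, hji, Bool.not_false, Bool.not_true, and_true, and_false, if_false, if_true,
          Bool.true_eq_false, Bool.false_eq_true, mul_one]
        exact ⟨1, by field_simp⟩
      · simp only [ng, Prod.mk.injEq, hji, Bool.not_false, Bool.not_true, and_true, and_false, if_false, if_true,
          Bool.true_eq_false, Bool.false_eq_true, mul_one]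
        exact ⟨t⁻¹, by field_simp⟩
    · intro k hk
      have hk1 := (Finset.mem_erase.1 hk).1
      have hk2 := (Finset.mem_erase.1 (Finset.mem_erase.1 hk).2).1
      have n1 : ((k, true) : Fin (n + 2) × Bool) ≠ x := fun h => hk2 (congrArg Prod.fst h)
      have n2 : ((k, true) : Fin (n + 2) × Bool) ≠ ng y := fun h => hk1 (congrArg Prod.fst h)
      have n3 : ((k, true) : Fin (n + 2) × Bool) ≠ ng x := fun h => hk2 (congrArg Prod.fst h)
      have n4 : ((k, true) : Fin (n + 2) × Bool) ≠ y := fun h => hk1 (congrArg Prod.fst h)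
      simp only [if_neg n1, if_neg n2, if_neg n3, if_neg n4]

/-- the small torus -/
def TS (Fr : Frame H (Fin (n + 2))) (G0 : Subgroup (V ≃ₗ[F] V)) : Subgroup (V ≃ₗ[F] V) where
  carrier := {g | g ∈ G0 ∧ MS Fr g (fun x => x) 1}
  one_mem' := ⟨one_mem _, MS.one⟩
  mul_mem' := fun ⟨h1, h2⟩ ⟨h3, h4⟩ => ⟨mul_mem h1 h3, (h2.mul h4 Pm.id).congr (fun _ => rfl) (mul_one 1)⟩
  inv_mem' := fun ⟨h1, h2⟩ => ⟨inv_mem h1, h2.inv Pm.id fun _ => rfl⟩

variable {G0 : Subgroup (V ≃ₗ[F] V)}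

theorem TS_le : TS Fr G0 ≤ Tor Fr G0 := fun _ hg => ⟨hg.1, hg.2.mono⟩

variable (hA : Amb Fr G0) (hε : H.ε = 1) (hσ : ∀ t, H.σ t = t)

include hA hε hσ

omit hA in
theorem ms_nn (i : Fin (n + 2)) : MS Fr (Cfsg.Agent.Nodes.WittRGDD.nn Fr i) (sg i) (-1) := ms_nX hε hσ i one_ne_zero

theorem nsysS : NSys (M n) (TS Fr G0) (Cfsg.Agent.Nodes.WittRGDD.nn Fr) where
  norm i := by
    have hnm := Cfsg.Agent.Nodes.WittRGDD.nn_mem hA i
    have key : ∀ g : V ≃ₗ[F] V, g ∈ G0 → MS Fr g (sg i) (-1) → ∀ t ∈ TS Fr G0, g * t * g⁻¹ ∈ TS Fr G0 := by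
      intro g hg hm t ht
      refine ⟨mul_mem (mul_mem hg ht.1) (inv_mem hg), ?_⟩
      exact ((hm.mul ht.2 Pm.id).mul (hm.inv (pm_sg i) (sg_sg i)) (pm_sg i)).congr (fun x => sg_sg i x) (by ring)
    rw [Subgroup.mem_normalizer_iff]
    intro t
    refine ⟨fun ht => key _ hnm (ms_nn hε hσ i) t ht, fun ht => ?_⟩
    have h1 := key _ (inv_mem hnm) ((ms_nn hε hσ i).inv (pm_sg i) (sg_sg i)) _ ht
    have h2 : (Cfsg.Agent.Nodes.WittRGDD.nn Fr i)⁻¹ * (Cfsg.Agent.Nodes.WittRGDD.nn Fr i * t *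
        (Cfsg.Agent.Nodes.WittRGDD.nn Fr i)⁻¹) * (Cfsg.Agent.Nodes.WittRGDD.nn Fr i)⁻¹⁻¹ = t := by group
    rwa [h2] at h1
  rel i j := by
    refine ⟨pow_mem (mul_mem (Cfsg.Agent.Nodes.WittRGDD.nn_mem hA i) (Cfsg.Agent.Nodes.WittRGDD.nn_mem hA j)) _, ?_⟩
    refine ((((ms_nn hε hσ i).mul (ms_nn hε hσ j) (pm_sg j)).pow ((pm_sg i).comp (pm_sg j)) _).1).congr
      (fun x => sg_braid i j x) ?_
    rw [neg_mul_neg, one_mul, one_pow]

theorem rk1S (i : Fin (n + 2)) {u : V ≃ₗ[F] V} (hu : u ∈ Cfsg.Agent.Nodes.WittRGDD.rg Fr (-sr i)) (hne : u ≠ 1) :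
    ∃ a ∈ Cfsg.Agent.Nodes.WittRGDD.rg Fr (sr i), ∃ t ∈ TS Fr G0, ∃ b ∈ Cfsg.Agent.Nodes.WittRGDD.rg Fr (sr i),
      u = a * t * Cfsg.Agent.Nodes.WittRGDD.nn Fr i * b := by
  rw [Cfsg.Agent.Nodes.WittRGDD.rg_neg_sr] at hu
  rw [Cfsg.Agent.Nodes.WittRGDD.rg_sr]
  obtain ⟨s, rfl⟩ := hu
  have hs : s ≠ 0 := by rintro rfl; exact hne (Fr.X_zero _ _)
  have ht : -s⁻¹ ≠ 0 := neg_ne_zero.2 (inv_ne_zero hs)
  refine ⟨Fr.X (i, true) (nx i) s⁻¹, ⟨_, rfl⟩, nX Fr (i, true) (nx i) (-s⁻¹) *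
    (Cfsg.Agent.Nodes.WittRGDD.nn Fr i)⁻¹, ⟨mul_mem (Cfsg.Agent.Nodes.WittRGDD.nX_mem hA _ _ _)
      (inv_mem (Cfsg.Agent.Nodes.WittRGDD.nn_mem hA _)), ?_⟩,
    Fr.X (i, true) (nx i) s⁻¹, ⟨_, rfl⟩, ?_⟩
  · exact ((ms_nX hε hσ i ht).mul ((ms_nn hε hσ i).inv (pm_sg i) (sg_sg i)) (pm_sg i)).congr (fun x => sg_sg i x)
      (by ring)
  · have e1 : Fr.X (i, true) (nx i) s⁻¹ = (Fr.X (i, true) (nx i) (-s⁻¹))⁻¹ := by
      rw [← Fr.X_neg, _root_.neg_neg]
    have e2 : -(-s⁻¹)⁻¹ = s := by rw [inv_neg, inv_inv, _root_.neg_neg]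
    rw [e1, nX, e2]
    show Fr.X (neg (nx i)) (neg (i, true)) s = _
    group

/-- the root group datum with the small torus -/
theorem rgdS [Finite V] {p : ℕ} [Fact p.Prime] [CharP F p] (h0 : ∀ p : Fr.Adm, p = 1) {W : Type*} [Group W]
    (cs : CoxeterSystem (M n) W) :
    RGD cs (isCartan n) p (TS Fr G0) (Cfsg.Agent.Nodes.WittRGDD.nn Fr) (Cfsg.Agent.Nodes.WittRGDD.rg Fr) := by
  have : Finite (V ≃ₗ[F] V) := Finite.of_injective (fun g : V ≃ₗ[F] V => (g : V → V)) DFunLike.coe_injective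
  exact rgd_sub (rgdD hA h0 cs) TS_le (nsysS hA hε hσ) fun i u hu hne => rk1S hA hε hσ i hu hne

end MS

end Cfsg.Agent.H158.OZ
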